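import Cfsg.Agent.Lib.Helper7.CK1

set_option autoImplicit false
set_option linter.unusedSimpArgs false
set_option linter.unusedVariables false
set_option linter.unusedSectionVars false

namespace Cfsg.Agent.Lib.Helper7

open Cfsg.Lie Cfsg.Lie.ChevalleyDatum Matrix Equiv

namespace Sys5

variable {D : ChevalleyDatum} (S : Sys5 D) {K : Type*} [Field K] (f : K ≃+* K)
include S

theorem fieldTw_sg_xg {r : ℕ} (hr : r < D.nroots) (t : K) : (S.fieldTw K f).sg (S.xg r t) = S.xg r (f t) := by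
  rw [(S.fieldTw K f).sg_xg r hr]
  show S.xg r (((1 : ℤ) : K) * f t) = _
  simp

theorem fieldTw_char {h : GL D.Idx K} (hf : h ∈ (S.fieldTw K f).Fix) {χ : ℕ → K}
    (h3 : ∀ s < D.nroots, ∀ t : K, h * S.xg s t * h⁻¹ = S.xg s (χ s * t)) {r : ℕ} (hr : r < D.nroots) :
    f (χ r) = χ r := by
  have h1 : (S.fieldTw K f).sg h = h := hf
  have h2 := congrArg (S.fieldTw K f).sg (h3 r hr 1)
  rw [map_mul, map_mul, map_inv, h1, S.fieldTw_sg_xg f hr, S.fieldTw_sg_xg f hr, map_one, h3 r hr, mul_one] at h2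
  exact (S.xg_param_inj S.noDbl hr h2).symm

theorem fieldTw_diag_conj {h : GL D.Idx K} (hh : h ∈ D.diagonalSubgroup K) (hf : h ∈ (S.fieldTw K f).Fix)
    {γ : GL D.Idx K} (hγ : γ ∈ (S.fieldTw K f).Gam) : h * γ * h⁻¹ ∈ (S.fieldTw K f).Gam := by
  obtain ⟨χ, _, _, h3⟩ := S.diag_char hh
  rw [Tw.Gam_eq] at hγ
  refine conj_mem_of_gens ?_ γ hγ
  rintro _ ⟨e, i, t, hi, ht, rfl⟩
  have hr : rt D e i < D.nroots := (S.fieldTw K f).rt_lt e hi
  rw [fieldTw_xJ, h3 _ hr, ← S.fieldTw_xJ f]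
  apply (S.fieldTw K f).xJ_mem_Gam e hi
  show f (χ (rt D e i) * t) = _
  have ht' : f t = t := ht
  rw [map_mul, S.fieldTw_char f hf h3 hr, ht']

theorem fieldTw_decomp {g : GL D.Idx K} (hg : g ∈ D.group K) (hf : g ∈ (S.fieldTw K f).Fix) :
    ∃ γ ∈ (S.fieldTw K f).Gam, ∃ h ∈ D.diagonalSubgroup K ⊓ (S.fieldTw K f).Fix, g = γ * h := by
  have hc : (S.fieldTw K f).Comm S.w0 := fun r _ => rfl
  obtain ⟨u, hu, n, hn, v, hv, rfl⟩ := (S.fieldTw K f).fix_decomp hg hf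
  obtain ⟨L, hL, h, hh, rfl⟩ := (S.fieldTw K f).mono_fix hn.1 hn.2
  have h1 := (S.fieldTw K f).pos_fix_le hc hu
  have h2 := (S.fieldTw K f).pos_fix_le hc ⟨S.Um_le_pos _ hv.1, hv.2⟩
  have h3 := (S.fieldTw K f).nw_jw_mem_Gam hL
  refine ⟨u * S.nw K ((S.fieldTw K f).jw L) * (h * v * h⁻¹),
    mul_mem (mul_mem h1 h3) (S.fieldTw_diag_conj f hh.1 hh.2 h2), h, hh, by group⟩

/-- subgroups between the group of rational points and the group of fixed points -/
theorem between (Kg : Subgroup (GL D.Idx K)) (h1 : ∀ r < D.nroots, ∀ t : K, f t = t → S.xg r t ∈ Kg)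
    (h2 : Kg ≤ D.group K ⊓ (S.fieldTw K f).Fix) :
    D.group K ⊓ Subgroup.centralizer (Kg : Set (GL D.Idx K)) = ⊥ ∧
    ∀ g ∈ D.group K, (g ∈ Subgroup.normalizer (Kg : Set (GL D.Idx K)) ↔ g ∈ (S.fieldTw K f).Fix) := by
  have hGam : (S.fieldTw K f).Gam ≤ Kg := by
    rw [Tw.Gam_eq, Subgroup.closure_le]
    rintro _ ⟨e, i, t, hi, ht, rfl⟩
    rw [fieldTw_xJ]
    exact h1 _ ((S.fieldTw K f).rt_lt e hi) t ht
  have hone : ∀ r < D.nroots, S.xg r (1 : K) ∈ Kg := fun r hr => h1 r hr 1 (map_one f)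
  have hcent : ∀ c ∈ D.group K, (∀ x ∈ Kg, Commute c x) → c = 1 :=
    fun c hc h => S.cent_unit hc fun r hr => h _ (hone r hr)
  refine ⟨?_, ?_⟩
  · rw [eq_bot_iff]
    rintro c ⟨hc, hc'⟩
    rw [Subgroup.mem_bot]
    apply hcent c hc
    intro x hx
    exact (Subgroup.mem_centralizer_iff.1 hc' x hx).symm
  · intro g hg
    constructor
    · intro hn
      have hsg : (S.fieldTw K f).sg g ∈ D.group K :=
        Cfsg.Agent.S1080.map_le D f ⟨g, hg, rfl⟩
      have hc : g⁻¹ * (S.fieldTw K f).sg g = 1 := by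
        apply hcent _ (mul_mem (inv_mem hg) hsg)
        intro x hx
        have e1 : g * x * g⁻¹ ∈ Kg := (Subgroup.mem_normalizer_iff.1 hn x).1 hx
        have e2 : (S.fieldTw K f).sg (g * x * g⁻¹) = g * x * g⁻¹ := (h2 e1).2
        have e3 : (S.fieldTw K f).sg x = x := (h2 hx).2
        rw [map_mul, map_mul, map_inv, e3] at e2
        show _ * _ = _ * _
        calc g⁻¹ * (S.fieldTw K f).sg g * x
            = g⁻¹ * ((S.fieldTw K f).sg g * x * ((S.fieldTw K f).sg g)⁻¹) * (S.fieldTw K f).sg g := by group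
          _ = _ := by rw [e2]; group
      exact (inv_mul_eq_one.1 hc).symm
    · intro hf
      have key : ∀ g ∈ D.group K ⊓ (S.fieldTw K f).Fix, ∀ x ∈ Kg, g * x * g⁻¹ ∈ Kg := by
        rintro g ⟨hg, hf⟩ x hx
        obtain ⟨γ, hγ, h, hh, rfl⟩ := S.fieldTw_decomp f hg hf
        obtain ⟨γ', hγ', h', hh', rfl⟩ := S.fieldTw_decomp f (h2 hx).1 (h2 hx).2
        have hh'K : h' ∈ Kg := by
          have : h' = γ'⁻¹ * (γ' * h') := by group
          rw [this]
          exact mul_mem (inv_mem (hGam hγ')) hx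
        have e : γ * h * (γ' * h') * (γ * h)⁻¹ = γ * (h * γ' * h⁻¹) * (h * h' * h⁻¹) * γ⁻¹ := by group
        rw [e, S.diag_comm hh.1 hh'.1, mul_assoc h' h, mul_inv_cancel, mul_one]
        exact mul_mem (mul_mem (mul_mem (hGam hγ) (hGam (S.fieldTw_diag_conj f hh.1 hh.2 hγ'))) hh'K)
          (inv_mem (hGam hγ))
      rw [Subgroup.mem_normalizer_iff]
      intro x
      constructor
      · exact key g ⟨hg, hf⟩ x
      · intro hx
        have := key g⁻¹ (inv_mem (show g ∈ D.group K ⊓ (S.fieldTw K f).Fix from ⟨hg, hf⟩)) _ hx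
        have e : g⁻¹ * (g * x * g⁻¹) * g⁻¹⁻¹ = x := by group
        rwa [e] at this

end Sys5

end Cfsg.Agent.Lib.Helper7
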