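import Cfsg.Agent.Lib.Helper7.RS1
import Cfsg.Agent.Lib.Helper7.Sys5All

set_option autoImplicit false

namespace Cfsg.Agent.Lib.Helper7

open Cfsg.Lie

def topCertG2 : List (List ℕ) := [[], [1, 0], [0, 1, 0], [0, 1], [0], [1], [], [], [], [], [], []]

def topCertD4 : List (List ℕ) := [[], [3, 1, 2, 0], [2, 1, 0], [3, 1, 0], [1, 0], [0], [3, 1, 2], [2, 1], [3, 1], [1], [2], [3], [], [], [], [], [], [], [], [], [], [], [], []]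

def topCertE6 : List (List ℕ) := [[], [5, 4, 3, 2, 1, 3, 4, 0, 2, 3], [5, 4, 3, 2, 1, 3, 4, 0, 2], [5, 4, 3, 2, 1, 3, 0, 2], [4, 3, 2, 1, 3, 0, 2], [5, 4, 3, 2, 1, 3, 4, 0], [5, 4, 3, 2, 1, 3, 0], [4, 3, 2, 1, 3, 0], [5, 4, 3, 2, 1, 0], [4, 3, 2, 1, 0], [3, 2, 1, 0], [5, 4, 3, 2, 0], [4, 3, 2, 0], [3, 2, 0], [2, 0], [0], [5, 4, 3, 2, 1, 3, 4], [5, 4, 3, 2, 1, 3], [4, 3, 2, 1, 3], [5, 4, 3, 2, 1], [4, 3, 2, 1], [3, 2, 1], [5, 4, 3, 1], [4, 3, 1], [3, 1], [1], [5, 4, 3, 2], [4, 3, 2], [3, 2], [2], [5, 4, 3], [4, 3], [3], [5, 4], [4], [5], [], [], [], [], [], [], [], [], [], [], [], [], [], [], [], [], [], [], [], [], [], [], [], [], [], [], [], [], [], [], [], [], [], [], [], []]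

def topCertE7 : List (List ℕ) := [[], [6, 5, 4, 3, 2, 1, 3, 4, 5, 0, 2, 3, 4, 1, 3, 2], [6, 5, 4, 3, 2, 1, 3, 4, 5, 0, 2, 3, 4, 1, 3], [6, 5, 4, 3, 2, 1, 3, 4, 5, 0, 2, 3, 4, 1], [6, 5, 4, 3, 2, 1, 3, 4, 5, 0, 2, 3, 1], [6, 5, 4, 3, 2, 1, 3, 4, 0, 2, 3, 1], [5, 4, 3, 2, 1, 3, 4, 0, 2, 3, 1], [6, 5, 4, 3, 2, 1, 3, 4, 5, 0, 2, 3, 4], [6, 5, 4, 3, 2, 1, 3, 4, 5, 0, 2, 3], [6, 5, 4, 3, 2, 1, 3, 4, 0, 2, 3], [5, 4, 3, 2, 1, 3, 4, 0, 2, 3], [6, 5, 4, 3, 2, 1, 3, 4, 5, 0, 2], [6, 5, 4, 3, 2, 1, 3, 4, 0, 2], [5, 4, 3, 2, 1, 3, 4, 0, 2], [6, 5, 4, 3, 2, 1, 3, 0, 2], [5, 4, 3, 2, 1, 3, 0, 2], [4, 3, 2, 1, 3, 0, 2], [6, 5, 4, 3, 2, 1, 3, 4, 5, 0], [6, 5, 4, 3, 2, 1, 3, 4, 0], [5, 4, 3, 2, 1, 3, 4, 0], [6, 5, 4, 3, 2, 1, 3, 0], [5, 4, 3, 2, 1, 3, 0], [4, 3, 2, 1, 3, 0], [6, 5,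 4, 3, 2, 1, 0], [5, 4, 3, 2, 1, 0], [4, 3, 2, 1, 0], [3, 2, 1, 0], [6, 5, 4, 3, 2, 0], [5, 4, 3, 2, 0], [4, 3, 2, 0], [3, 2, 0], [2, 0], [0], [6, 5, 4, 3, 2, 1, 3, 4, 5], [6, 5, 4, 3, 2, 1, 3, 4], [5, 4, 3, 2, 1, 3, 4], [6, 5, 4, 3, 2, 1, 3], [5, 4, 3, 2, 1, 3], [4, 3, 2, 1, 3], [6, 5, 4, 3, 2, 1], [5, 4, 3, 2, 1], [4, 3, 2, 1], [3, 2, 1], [6, 5, 4, 3, 1], [5, 4, 3, 1], [4, 3, 1], [3, 1], [1], [6, 5, 4, 3, 2], [5, 4, 3, 2], [4, 3, 2], [3, 2], [2], [6, 5, 4, 3], [5, 4, 3], [4, 3], [3], [6, 5, 4], [5, 4], [4], [6, 5], [5], [6], [], [], [], [], [], [], [], [], [], [], [], [], [], [], [], [], [], [], [], [], [], [], [], [], [], [], [], [], [], [], [], [], [], [], [], [], [], [], [], [], [], [], [], [], [], [], [], [], [], [], [], [], [], [], [], [], [], [], [], [], [],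 [], []]

def topCertE8 : List (List ℕ) := [[], [7, 6, 5, 4, 3, 2, 1, 3, 4, 5, 6, 0, 2, 3, 4, 5, 1, 3, 4, 2, 3, 0, 2, 1, 3, 4, 5, 6], [7, 6, 5, 4, 3, 2, 1, 3, 4, 5, 6, 0, 2, 3, 4, 5, 1, 3, 4, 2, 3, 0, 2, 1, 3, 4, 5], [7, 6, 5, 4, 3, 2, 1, 3, 4, 5, 6, 0, 2, 3, 4, 5, 1, 3, 4, 2, 3, 0, 2, 1, 3, 4], [7, 6, 5, 4, 3, 2, 1, 3, 4, 5, 6, 0, 2, 3, 4, 5, 1, 3, 4, 2, 3, 0, 2, 1, 3], [7, 6, 5, 4, 3, 2, 1, 3, 4, 5, 6, 0, 2, 3, 4, 5, 1, 3, 4, 2, 3, 0, 2, 1], [7, 6, 5, 4, 3, 2, 1, 3, 4, 5, 6, 0, 2, 3, 4, 5, 1, 3, 4, 2, 3, 1, 0], [7, 6, 5, 4, 3, 2, 1, 3, 4, 5, 6, 0, 2, 3, 4, 5, 1, 3, 4, 2, 3, 0, 2], [7, 6, 5, 4, 3, 2, 1, 3, 4, 5, 6, 0, 2, 3, 4, 5, 1, 3, 4, 2, 3, 0], [7, 6, 5, 4, 3, 2, 1, 3, 4, 5, 6, 0, 2, 3, 4, 5, 1, 3, 4, 2, 0], [7, 6, 5, 4, 3, 2, 1, 3, 4, 5, 6, 0, 2, 3, 4, 5, 1, 3,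 2, 0], [7, 6, 5, 4, 3, 2, 1, 3, 4, 5, 6, 0, 2, 3, 4, 1, 3, 2, 0], [7, 6, 5, 4, 3, 2, 1, 3, 4, 5, 0, 2, 3, 4, 1, 3, 2, 0], [6, 5, 4, 3, 2, 1, 3, 4, 5, 0, 2, 3, 4, 1, 3, 2, 0], [7, 6, 5, 4, 3, 2, 1, 3, 4, 5, 6, 0, 2, 3, 4, 5, 1, 3, 4, 2, 3, 1], [7, 6, 5, 4, 3, 2, 1, 3, 4, 5, 6, 0, 2, 3, 4, 5, 1, 3, 4, 2, 3], [7, 6, 5, 4, 3, 2, 1, 3, 4, 5, 6, 0, 2, 3, 4, 5, 1, 3, 4, 2], [7, 6, 5, 4, 3, 2, 1, 3, 4, 5, 6, 0, 2, 3, 4, 5, 1, 3, 2], [7, 6, 5, 4, 3, 2, 1, 3, 4, 5, 6, 0, 2, 3, 4, 1, 3, 2], [7, 6, 5, 4, 3, 2, 1, 3, 4, 5, 0, 2, 3, 4, 1, 3, 2], [6, 5, 4, 3, 2, 1, 3, 4, 5, 0, 2, 3, 4, 1, 3, 2], [7, 6, 5, 4, 3, 2, 1, 3, 4, 5, 6, 0, 2, 3, 4, 5, 1, 3, 4], [7, 6, 5, 4, 3, 2, 1, 3, 4, 5, 6, 0, 2, 3, 4, 5, 1, 3], [7, 6, 5, 4, 3, 2, 1, 3, 4, 5, 6, 0, 2, 3, 4, 1, 3], [7, 6, 5, 4, 3, 2, 1,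 3, 4, 5, 0, 2, 3, 4, 1, 3], [6, 5, 4, 3, 2, 1, 3, 4, 5, 0, 2, 3, 4, 1, 3], [7, 6, 5, 4, 3, 2, 1, 3, 4, 5, 6, 0, 2, 3, 4, 5, 1], [7, 6, 5, 4, 3, 2, 1, 3, 4, 5, 6, 0, 2, 3, 4, 1], [7, 6, 5, 4, 3, 2, 1, 3, 4, 5, 0, 2, 3, 4, 1], [6, 5, 4, 3, 2, 1, 3, 4, 5, 0, 2, 3, 4, 1], [7, 6, 5, 4, 3, 2, 1, 3, 4, 5, 6, 0, 2, 3, 1], [7, 6, 5, 4, 3, 2, 1, 3, 4, 5, 0, 2, 3, 1], [6, 5, 4, 3, 2, 1, 3, 4, 5, 0, 2, 3, 1], [7, 6, 5, 4, 3, 2, 1, 3, 4, 0, 2, 3, 1], [6, 5, 4, 3, 2, 1, 3, 4, 0, 2, 3, 1], [5, 4, 3, 2, 1, 3, 4, 0, 2, 3, 1], [7, 6, 5, 4, 3, 2, 1, 3, 4, 5, 6, 0, 2, 3, 4, 5], [7, 6, 5, 4, 3, 2, 1, 3, 4, 5, 6, 0, 2, 3, 4], [7, 6, 5, 4, 3, 2, 1, 3, 4, 5, 0, 2, 3, 4], [6, 5, 4, 3, 2, 1, 3, 4, 5, 0, 2, 3, 4], [7, 6, 5, 4, 3, 2, 1, 3, 4, 5, 6, 0, 2, 3], [7, 6, 5, 4, 3, 2, 1, 3, 4, 5, 0, 2,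 3], [6, 5, 4, 3, 2, 1, 3, 4, 5, 0, 2, 3], [7, 6, 5, 4, 3, 2, 1, 3, 4, 0, 2, 3], [6, 5, 4, 3, 2, 1, 3, 4, 0, 2, 3], [5, 4, 3, 2, 1, 3, 4, 0, 2, 3], [7, 6, 5, 4, 3, 2, 1, 3, 4, 5, 6, 0, 2], [7, 6, 5, 4, 3, 2, 1, 3, 4, 5, 0, 2], [6, 5, 4, 3, 2, 1, 3, 4, 5, 0, 2], [7, 6, 5, 4, 3, 2, 1, 3, 4, 0, 2], [6, 5, 4, 3, 2, 1, 3, 4, 0, 2], [5, 4, 3, 2, 1, 3, 4, 0, 2], [7, 6, 5, 4, 3, 2, 1, 3, 0, 2], [6, 5, 4, 3, 2, 1, 3, 0, 2], [5, 4, 3, 2, 1, 3, 0, 2], [4, 3, 2, 1, 3, 0, 2], [7, 6, 5, 4, 3, 2, 1, 3, 4, 5, 6, 0], [7, 6, 5, 4, 3, 2, 1, 3, 4, 5, 0], [6, 5, 4, 3, 2, 1, 3, 4, 5, 0], [7, 6, 5, 4, 3, 2, 1, 3, 4, 0], [6, 5, 4, 3, 2, 1, 3, 4, 0], [5, 4, 3, 2, 1, 3, 4, 0], [7, 6, 5, 4, 3, 2, 1, 3, 0], [6, 5, 4, 3, 2, 1, 3, 0], [5, 4, 3, 2, 1, 3, 0], [4, 3, 2, 1, 3, 0], [7, 6, 5, 4, 3, 2,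 1, 0], [6, 5, 4, 3, 2, 1, 0], [5, 4, 3, 2, 1, 0], [4, 3, 2, 1, 0], [3, 2, 1, 0], [7, 6, 5, 4, 3, 2, 0], [6, 5, 4, 3, 2, 0], [5, 4, 3, 2, 0], [4, 3, 2, 0], [3, 2, 0], [2, 0], [0], [7, 6, 5, 4, 3, 2, 1, 3, 4, 5, 6], [7, 6, 5, 4, 3, 2, 1, 3, 4, 5], [6, 5, 4, 3, 2, 1, 3, 4, 5], [7, 6, 5, 4, 3, 2, 1, 3, 4], [6, 5, 4, 3, 2, 1, 3, 4], [5, 4, 3, 2, 1, 3, 4], [7, 6, 5, 4, 3, 2, 1, 3], [6, 5, 4, 3, 2, 1, 3], [5, 4, 3, 2, 1, 3], [4, 3, 2, 1, 3], [7, 6, 5, 4, 3, 2, 1], [6, 5, 4, 3, 2, 1], [5, 4, 3, 2, 1], [4, 3, 2, 1], [3, 2, 1], [7, 6, 5, 4, 3, 1], [6, 5, 4, 3, 1], [5, 4, 3, 1], [4, 3, 1], [3, 1], [1], [7, 6, 5, 4, 3, 2], [6, 5, 4, 3, 2], [5, 4, 3, 2], [4, 3, 2], [3, 2], [2], [7, 6, 5, 4, 3], [6, 5, 4, 3], [5, 4, 3], [4, 3], [3], [7, 6, 5, 4], [6, 5, 4], [5, 4], [4], [7, 6, 5],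 [6, 5], [5], [7, 6], [6], [7], [], [], [], [], [], [], [], [], [], [], [], [], [], [], [], [], [], [], [], [], [], [], [], [], [], [], [], [], [], [], [], [], [], [], [], [], [], [], [], [], [], [], [], [], [], [], [], [], [], [], [], [], [], [], [], [], [], [], [], [], [], [], [], [], [], [], [], [], [], [], [], [], [], [], [], [], [], [], [], [], [], [], [], [], [], [], [], [], [], [], [], [], [], [], [], [], [], [], [], [], [], [], [], [], [], [], [], [], [], [], [], [], [], [], [], [], [], [], [], []]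

/-- the commutator coefficients of `r` with the positive roots are divisible by `p` -/
noncomputable def czChk (X : Fast) (p r : ℕ) : Bool :=
  allFrom (X.n / 2) (X.n / 2) fun s => !Nat.beq s (X.n - 1 - r) &&
    (commTermsG (entF X) r s).all fun c => decide (c.2.1 % (p : ℤ) = 0)

/-- the words of the list make `r` and a second root positive -/
noncomputable def pairChk (X : Fast) (W : FastW) (r : ℕ) (c : List (List ℕ)) : Bool :=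
  allLt X.n fun s => Nat.beq s (X.n - 1 - r) ||
    ((c.getD s []).all (fun i => Nat.blt i X.l) && Nat.ble (X.n / 2) (sigW X W (c.getD s []) r) &&
      Nat.ble (X.n / 2) (sigW X W (c.getD s []) s))

namespace Sys5

variable {D : ChevalleyDatum} (S : Sys5 D)
include S

theorem CZ_of_chk {F : Type*} [Field F] (p : ℕ) [CharP F p] {r : ℕ} (hr : r < D.nroots)
    (h : czChk S.X p r = true) : ∀ s, D.IsPosRoot s → CZ D F r s := by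
  intro s hs
  have hs' := S.isPos_iff.1 hs
  have he : S.X.n % 2 = 0 := S.even
  have h1 := allFrom_sound h s (by rw [← S.hn]; exact hs'.1) (by rw [← S.hn]; have := S.hn; omega)
  simp only [Bool.and_eq_true, Bool.not_eq_true', nbeq_false_iff, List.all_eq_true, decide_eq_true_eq] at h1
  refine ⟨?_, ?_⟩
  · rw [S.neg_eq hr, S.hn]; exact h1.1
  · intro c hc
    rw [S.commTerms_eq'] at hc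
    rw [CharP.intCast_eq_zero_iff F p]
    exact Int.dvd_of_emod_eq_zero (h1.2 c hc)

theorem cert_of_chk {r : ℕ} (hr : r < D.nroots) {c : List (List ℕ)} (h : pairChk S.X S.W r c = true) :
    ∀ s < D.nroots, s ≠ D.neg r → ∃ w, OKw D w ∧ D.IsPosRoot (σw D w r) ∧ D.IsPosRoot (σw D w s) := by
  intro s hs hne
  have h1 := allLt_sound h s (S.hn ▸ hs)
  simp only [Bool.or_eq_true, nbeq_iff, Bool.and_eq_true, List.all_eq_true, Nat.blt_eq, Nat.ble_eq] at h1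
  rcases h1 with h1 | ⟨⟨h1, h2⟩, h3⟩
  · exact absurd (by rw [S.neg_eq hr, S.hn]; exact h1) hne
  · have hw : OKw D (c.getD s []) := fun i hi => S.hl ▸ h1 i hi
    refine ⟨_, hw, ?_, ?_⟩
    · rw [S.isPos_iff]
      refine ⟨?_, S.σw_lt hw hr⟩
      rw [S.σw_eq_sigW hw hr, S.hn]; exact h2
    · rw [S.isPos_iff]
      refine ⟨?_, S.σw_lt hw hs⟩
      rw [S.σw_eq_sigW hw hs, S.hn]; exact h3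

end Sys5

theorem topCzG2 : czChk fastG2 2 11 = true := by decide +kernel
theorem topPairG2 : pairChk fastG2 fastWG2 11 topCertG2 = true := by decide +kernel
theorem topCzD4 : czChk fastD4 2 23 = true := by decide +kernel
theorem topPairD4 : pairChk fastD4 fastWD4 23 topCertD4 = true := by decide +kernel
theorem topCzE6 : czChk fastE6 2 71 = true := by decide +kernel
theorem topPairE6 : pairChk fastE6 fastWE6 71 topCertE6 = true := by decide +kernel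
theorem topCzE7 : czChk fastE7 2 125 = true := by decide +kernel
theorem topPairE7 : pairChk fastE7 fastWE7 125 topCertE7 = true := by decide +kernel
theorem topCzE8 : czChk fastE8 2 239 = true := by decide +kernel
theorem topPairE8 : pairChk fastE8 fastWE8 239 topCertE8 = true := by decide +kernel

end Cfsg.Agent.Lib.Helper7
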