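import Cfsg.Agent.Lib.Helper7.RS2
import Cfsg.Agent.Lib.Helper3.BN2
import Cfsg.Agent.Lib.Helper7.Um2

set_option autoImplicit false
set_option linter.unusedSimpArgs false
set_option linter.unusedVariables false
set_option linter.unusedSectionVars false

namespace Cfsg.Agent.Lib.Helper7

open Cfsg.Lie Cfsg.Lie.ChevalleyDatum Matrix Equiv

theorem chi_range_single {F : Type*} [Field F] (D : ChevalleyDatum) (c : ℕ → F) (r i0 : ℕ) (m : ℕ)
    (h : ∀ i < m, D.cartan i r = if i = i0 then 1 else 0) :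
    chi D (List.range m) c r = if i0 < m then c i0 else 1 := by
  induction m with
  | zero => simp [chi]
  | succ m ih =>
    have e : chi D (List.range (m + 1)) c r = chi D (List.range m) c r * c m ^ D.cartan m r := by
      simp [chi, List.range_succ]
    rw [e, ih (fun i hi => h i (by omega)), h m (by omega)]
    by_cases h1 : m = i0
    · subst h1
      simp
    · rw [if_neg h1, zpow_zero, mul_one]
      by_cases h2 : i0 < m
      · rw [if_pos h2, if_pos (by omega)]
      · rw [if_neg h2, if_neg (by omega)]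

namespace Sys5

variable {D : ChevalleyDatum} (S : Sys5 D) {F : Type*} [Field F]
include S

/-- the root elements generating the centralizer of a root element of a dominant root -/
def cenSet (L : List ℕ) : Set (GL D.Idx F) :=
  {g | ∃ (s : ℕ) (c : F), (D.IsPosRoot s ∨ s ∈ L) ∧ g = S.xg s c}

theorem cenSet_closure (L : List ℕ) : Subgroup.closure (S.cenSet (F := F) L) =
    D.posUnipotent F ⊔ Subgroup.closure {g : GL D.Idx F | ∃ s ∈ L, ∃ c : F, (g : Matrix D.Idx D.Idx F) = D.x F s c} := by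
  rw [S.posUnipotent_eq, ← Subgroup.closure_union]
  congr 1
  ext g
  constructor
  · rintro ⟨s, c, h | h, rfl⟩
    · exact Or.inl ⟨s, c, h, rfl⟩
    · exact Or.inr ⟨s, h, c, rfl⟩
  · rintro (⟨s, c, h, rfl⟩ | ⟨s, h, c, e⟩)
    · exact ⟨s, c, Or.inl h, rfl⟩
    · exact ⟨s, c, Or.inr h, S.eq_xg.1 e⟩

theorem cen_commute {r : ℕ} (hr : r < D.nroots) (hC : ∀ s, D.IsPosRoot s → CZ D F r s)
    {L : List ℕ} (hL : ∀ s ∈ L, s < D.nroots ∧ CZ D F r s) {g : GL D.Idx F}
    (hg : g ∈ Subgroup.closure (S.cenSet (F := F) L)) (t : F) : Commute g (S.xg r t) := by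
  induction hg using Subgroup.closure_induction with
  | mem x hx =>
    obtain ⟨s, a, hs, rfl⟩ := hx
    rcases hs with hs | hs
    · exact (S.commute_of_CZ hr hs.1 (hC s hs) t a).symm
    · exact (S.commute_of_CZ hr (hL s hs).1 (hL s hs).2 t a).symm
  | one => exact Commute.one_left _
  | mul x y _ _ hx hy => exact hx.mul_left hy
  | inv x _ hx => exact hx.inv_left

theorem diag_le_normalizer_cen {L : List ℕ} (hL : ∀ s ∈ L, s < D.nroots) :
    D.diagonalSubgroup F ≤ Subgroup.normalizer (Subgroup.closure (S.cenSet (F := F) L) : Set (GL D.Idx F)) := by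
  have key : ∀ h ∈ D.diagonalSubgroup F, ∀ x ∈ S.cenSet (F := F) L,
      h * x * h⁻¹ ∈ Subgroup.closure (S.cenSet (F := F) L) := by
    rintro h hh _ ⟨s, c, hs, rfl⟩
    obtain ⟨χ, _, _, h3⟩ := S.diag_char hh
    have hs' : s < D.nroots := hs.elim (fun h => h.1) (hL s)
    rw [h3 s hs']
    exact Subgroup.subset_closure ⟨s, _, hs, rfl⟩
  intro h hh
  apply mem_normalizer_closure (key h hh)
  intro x hx
  have := key h⁻¹ (inv_mem hh) x hx
  rwa [inv_inv] at this

theorem ng_mem_cen {L : List ℕ} {i : ℕ} (hi : i < D.rank) (h : D.neg (D.simple i) ∈ L) (c : F) :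
    S.ng (D.simple i) c ∈ Subgroup.closure (S.cenSet (F := F) L) := by
  rw [Sys.ng_def]
  exact mul_mem (mul_mem (Subgroup.subset_closure ⟨_, _, Or.inl (S.simple_pos hi), rfl⟩)
    (Subgroup.subset_closure ⟨_, _, Or.inr h, rfl⟩)) (Subgroup.subset_closure ⟨_, _, Or.inl (S.simple_pos hi), rfl⟩)

theorem hpr_mem_cen {L : List ℕ} (c : ℕ → F) (L' : List ℕ)
    (h : ∀ i ∈ L', i < D.rank ∧ (c i = 1 ∨ D.neg (D.simple i) ∈ L)) :
    S.hpr L' c ∈ Subgroup.closure (S.cenSet (F := F) L) := by
  induction L' with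
  | nil => rw [Sys2.hpr_nil]; exact one_mem _
  | cons i L' ih =>
    rw [Sys2.hpr_cons]
    refine mul_mem ?_ (ih fun j hj => h j (List.mem_cons_of_mem _ hj))
    obtain ⟨hi, h1 | h1⟩ := h i List.mem_cons_self
    · rw [h1, Sys.hg_def, ← Sys.ng_inv, mul_inv_cancel]
      exact one_mem _
    · rw [Sys.hg_def]
      exact mul_mem (S.ng_mem_cen hi h1 _) (S.ng_mem_cen hi h1 _)

/-- the centralizer of `x_r(1)` for a dominant root `r` which is a fundamental weight -/
theorem cen_root {r : ℕ} (hr : r < D.nroots) (hC : ∀ s, D.IsPosRoot s → CZ D F r s)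
    {L : List ℕ} (hL : ∀ s ∈ L, s < D.nroots ∧ CZ D F r s) {i0 : ℕ} (hi0 : i0 < D.rank)
    (hcart : ∀ i < D.rank, D.cartan i r = if i = i0 then 1 else 0)
    (hneg : ∀ i < D.rank, i ≠ i0 → D.neg (D.simple i) ∈ L)
    (hrefl : D.reflectRoot i0 r ≠ r) :
    D.group F ⊓ Subgroup.centralizer {S.xg r (1 : F)} = Subgroup.closure (S.cenSet (F := F) L) := by
  set R := Subgroup.closure (S.cenSet (F := F) L) with hR
  have hRG : R ≤ D.group F := by
    rw [hR, Subgroup.closure_le]
    rintro _ ⟨s, c, _, rfl⟩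
    exact S.xg_mem_group c
  have hUR : D.posUnipotent F ≤ R := by
    rw [S.posUnipotent_eq]
    apply Subgroup.closure_mono
    rintro _ ⟨s, c, h, rfl⟩
    exact ⟨s, c, Or.inl h, rfl⟩
  have hcom := fun g hg => S.cen_commute (F := F) hr hC hL (g := g) hg 1
  apply le_antisymm
  · rintro g ⟨hg, hgc⟩
    have hgc' : Commute g (S.xg r (1 : F)) := (Subgroup.mem_centralizer_singleton_iff.1 hgc)
    obtain ⟨u, hu, n, hn, v, hv, rfl⟩ := S.unu_exists hg
    have hv' := S.Um_le_pos n hv
    have hnc : Commute n (S.xg r (1 : F)) := by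
      have e : n = u⁻¹ * (u * n * v) * v⁻¹ := by group
      rw [e]
      exact ((hcom u (hUR hu)).inv_left.mul_left hgc').mul_left (hcom v (hUR hv')).inv_left
    suffices hnR : n ∈ R from mul_mem (mul_mem (hUR hu) hnR) (hUR hv')
    -- the stabilizer of the root subgroup
    let M : Subgroup ↥(D.group F) :=
      { carrier := {g | cj (g : GL D.Idx F) (D.rootSubgroup F r) = D.rootSubgroup F r}
        one_mem' := cj_one _
        mul_mem' := by
          intro a b ha hb
          show cj ((a : GL D.Idx F) * b) _ = _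
          rw [cj_mul, hb, ha]
        inv_mem' := by
          intro a ha
          show cj ((a : GL D.Idx F)⁻¹) _ = _
          conv_lhs => rw [← ha]
          rw [← cj_mul, inv_mul_cancel, cj_one] }
    have hBM : (S.bnPair F).B ≤ M := by
      intro b hb
      exact cj_eq_of (S.borel_conj_root (F := F) hr hC) hb
    have hM := Cfsg.Agent.Lib.Helper3.eq_parabolic (S.bnPair F) hBM
    have hMle : M ≤ (R ⊔ D.diagonalSubgroup F).subgroupOf (D.group F) := by
      rw [hM]
      unfold Cfsg.BNPair.parabolic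
      apply sup_le
      · intro b hb
        obtain ⟨u, hu, h, hh, e⟩ := S.mem_borel (g := (b : GL D.Idx F)) hb
        show (b : GL D.Idx F) ∈ R ⊔ D.diagonalSubgroup F
        rw [e]
        exact mul_mem (Subgroup.mem_sup_left (hUR hu)) (Subgroup.mem_sup_right hh)
      · rw [Subgroup.closure_le]
        rintro x ⟨⟨i, hi, hx⟩, hxM⟩
        show (x : GL D.Idx F) ∈ R ⊔ D.diagonalSubgroup F
        have hx' := S.eq_ng.1 hx
        have h1 : cj (x : GL D.Idx F) (D.rootSubgroup F r) = D.rootSubgroup F r := hxM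
        have h2 := S.cj_mono_root (F := F) (w := [i]) (by intro j hj; simp at hj; omega) (one_mem _) hr
        rw [mul_one] at h2
        have h3 : S.nw F [i] = x := by rw [hx']; simp
        rw [h3, h1] at h2
        have h4 : S.xg r (1 : F) ∈ D.rootSubgroup F (σw D [i] r) := h2 ▸ S.xg_mem_rootSubgroup r 1
        obtain ⟨t, ht⟩ := S.mem_rootSubgroup.1 h4
        have h5 : r = σw D [i] r := S.xg_inj S.noDbl hr (S.σw_lt (by intro j hj; simp at hj; omega) hr) one_ne_zero ht
        have h6 : i ≠ i0 := by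
          rintro rfl
          exact hrefl h5.symm
        rw [hx']
        exact Subgroup.mem_sup_left (S.ng_mem_cen hi (hneg i hi h6) 1)
    obtain ⟨w, hw, h, hh, rfl⟩ := S.mem_mono hn
    obtain ⟨c, hc, h1⟩ := S.nwh_conj hw hh hr
    have h2 : S.xg r (1 : F) = S.xg (σw D w r) (c * 1) := by
      rw [← h1, hnc.eq, mul_assoc, mul_inv_cancel, mul_one]
    have h3 : r = σw D w r := S.xg_inj S.noDbl hr (S.σw_lt hw hr) one_ne_zero h2
    have hnG : S.nw F w * h ∈ D.group F := S.mono_le_group hn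
    have h4 : (⟨_, hnG⟩ : ↥(D.group F)) ∈ M := by
      show cj (S.nw F w * h) _ = _
      rw [S.cj_mono_root hw hh hr, ← h3]
    have h5 : S.nw F w * h ∈ R ⊔ D.diagonalSubgroup F := hMle h4
    obtain ⟨ρ, hρ, h', hh', e⟩ := mem_sup_of_le_normalizer (S.diag_le_normalizer_cen fun s hs => (hL s hs).1) h5
    rw [e]
    refine mul_mem hρ ?_
    have h6 : Commute h' (S.xg r (1 : F)) := by
      have e' : h' = ρ⁻¹ * (S.nw F w * h) := by rw [e]; group
      rw [e']
      exact (hcom ρ hρ).inv_left.mul_left hnc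
    obtain ⟨c', hc', rfl⟩ := S.exists_hpr hh'
    have h7 := S.hpr_conj (List.range D.rank) c' (fun i hi => List.mem_range.1 hi) (fun i _ => hc' i) hr (1 : F)
    rw [h6.eq, mul_assoc, mul_inv_cancel, mul_one, chi_range_single D c' r i0 D.rank hcart, if_pos hi0, mul_one] at h7
    have h8 := S.xg_param_inj S.noDbl hr h7
    apply S.hpr_mem_cen
    intro i hi
    refine ⟨List.mem_range.1 hi, ?_⟩
    by_cases h9 : i = i0
    · left; rw [h9]; exact h8.symm
    · right; exact hneg i (List.mem_range.1 hi) h9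
  · intro g hg
    exact ⟨hRG hg, Subgroup.mem_centralizer_singleton_iff.2 (hcom g hg).eq⟩

end Sys5

end Cfsg.Agent.Lib.Helper7
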