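import Cfsg.Agent.Lib.Helper7.RS3

set_option autoImplicit false

namespace Cfsg.Agent.Lib.Helper7

open Cfsg.Lie

/-- the commutator coefficients of `r` with the roots of the list are divisible by `p` -/
noncomputable def czList (X : Fast) (p r : ℕ) (L : List ℕ) : Bool :=
  L.all fun s => Nat.blt s X.n && !Nat.beq s (X.n - 1 - r) &&
    (commTermsG (entF X) r s).all fun c => decide (c.2.1 % (p : ℤ) = 0)

namespace Sys5

variable {D : ChevalleyDatum} (S : Sys5 D)
include S

theorem CZ_of_list {F : Type*} [Field F] (p : ℕ) [CharP F p] {r : ℕ} (hr : r < D.nroots) {L : List ℕ}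
    (h : czList S.X p r L = true) : ∀ s ∈ L, s < D.nroots ∧ CZ D F r s := by
  intro s hs
  have h1 := List.all_eq_true.1 h s hs
  simp only [Bool.and_eq_true, Bool.not_eq_true', nbeq_false_iff, List.all_eq_true, decide_eq_true_eq,
    Nat.blt_eq] at h1
  refine ⟨S.hn ▸ h1.1.1, ?_, ?_⟩
  · rw [S.neg_eq hr, S.hn]; exact h1.1.2
  · intro c hc
    rw [S.commTerms_eq'] at hc
    rw [CharP.intCast_eq_zero_iff F p]
    exact Int.dvd_of_emod_eq_zero (h1.2 c hc)

end Sys5

theorem cenCzE6 : czList fastE6 2 71 [15, 29, 32, 34, 35] = true := by decide +kernel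
theorem cenCzE7 : czList fastE7 2 125 [47, 52, 56, 59, 61, 62] = true := by decide +kernel
theorem cenCzE8 : czList fastE8 2 239 [77, 98, 104, 109, 113, 116, 118] = true := by decide +kernel
theorem topCzF4 : czChk fastF4 2 47 = true := by decide +kernel
theorem topCzF4s : czChk fastF4 2 44 = true := by decide +kernel
theorem cenCzF4 : czList fastF4 2 47 [14, 20, 22] = true := by decide +kernel
theorem cenCzF4s : czList fastF4 2 44 [20, 22, 23] = true := by decide +kernel

end Cfsg.Agent.Lib.Helper7
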